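import Cfsg.Agent.H481.E6C.Final
import Cfsg.Agent.H541.Hall.E6Three
import Cfsg.Agent.H813.Hall.E6Three

/-!
# S2223, the rows `E₆(q)`, `q ≡ 7 mod 8`, and `²E₆(q)`, `q ≡ ±1 mod 8` (helper405, task HALLPRO2 E-7)

If `s ^ 2 = 2`, the matrix `A = [[0,-1],[1,s]]` satisfies `A ^ 2 = s A - 1` and `A ^ 4 = -1`; `y = Ph k A` is annihilated
by `(X - 1) (X ^ 2 - s X + 1)`.
-/

set_option autoImplicit false

namespace Cfsg.Agent.H405.Hall.E6Seven

open Cfsg.Lie Cfsg.Agent.ChevalleyStructure.E6Min.Tables Cfsg.Agent.ChevalleyStructure.E6Min.Basic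
  Cfsg.Agent.ChevalleyStructure.E6Min.Torus Cfsg.Agent.H125.Hall.E6 Cfsg.Agent.H125.Hall
open scoped Matrix

section

variable {K : Type*} [Field K]

/-- the matrix of order 8 -/
def AA (s : K) : Matrix (Fin 2) (Fin 2) K := !![0, -1; 1, s]

theorem AA_sq (s : K) : AA s * AA s = s • AA s - 1 := by
  ext i j
  fin_cases i <;> fin_cases j <;> simp [AA, Matrix.mul_apply, Fin.sum_univ_two]
  ring

theorem AA_four {s : K} (hs : s * s = 2) : AA s * AA s * (AA s * AA s) = -1 := by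
  rw [AA_sq, sub_mul, mul_sub, smul_mul_smul_comm, AA_sq, hs, mul_one, one_mul]
  ext i j
  fin_cases i <;> fin_cases j <;> simp [AA] <;> ring

theorem slIn_AA {k0 : Subfield K} {s : K} (hs : s ∈ k0) : SlIn k0 (AA s) := by
  refine ⟨by simp [AA, Matrix.det_fin_two], fun i j => ?_⟩
  fin_cases i <;> fin_cases j
  · exact zero_mem k0
  · exact neg_mem (one_mem k0)
  · exact one_mem k0
  · exact hs

/-- the polynomial -/
noncomputable def PQ (s : K) : Polynomial K :=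
  (Polynomial.X - 1) * (Polynomial.X ^ 2 - Polynomial.C s * Polynomial.X + 1)

theorem PQ_ne (s : K) : PQ s ≠ 0 := by
  have h1 : (Polynomial.X - 1 : Polynomial K).Monic := by monicity!
  have h2 : (Polynomial.X ^ 2 - Polynomial.C s * Polynomial.X + 1 : Polynomial K).Monic := by monicity!
  exact (h1.mul h2).ne_zero

theorem PQ_deg (s : K) : (PQ s).natDegree ≤ 4 := by
  have : (PQ s).natDegree ≤ 3 := by
    unfold PQ
    compute_degree
  omega

theorem aeval_PQ (s : K) (y : Matrix I27 I27 K) : Polynomial.aeval y (PQ s) = (y - 1) * (y * y - s • y + 1) := by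
  unfold PQ
  simp only [map_mul, map_sub, map_add, map_pow, Polynomial.aeval_X, Polynomial.aeval_C, map_one, pow_two,
    Algebra.algebraMap_eq_smul_one, smul_mul_assoc, one_mul]

theorem PQ_y (s : K) (k : Fin 4) : Polynomial.aeval (Ph k (AA s)) (PQ s) = 0 := by
  have hr := Cfsg.Agent.H541.Hall.E6Three.bI_lt k
  rw [aeval_PQ, Cfsg.Agent.H541.Hall.E6Three.Ph_mul, AA_sq, Cfsg.Agent.H541.Hall.E6Three.Ph_eq,
    Cfsg.Agent.H541.Hall.E6Three.Ph_eq, Cfsg.Agent.H541.Hall.E6Three.Th_sub,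
    Cfsg.Agent.H541.Hall.E6Three.Th_smul]
  have h1 : Cfsg.Agent.H541.Hall.E6Three.Th (bI k) (1 : Matrix (Fin 2) (Fin 2) K) *
      Cfsg.Agent.H541.Hall.E6Three.Th (bI k) 1 = Cfsg.Agent.H541.Hall.E6Three.Th (bI k) 1 := by
    rw [Cfsg.Agent.H541.Hall.E6Three.Th_mul hr, one_mul]
  have h2 : Cfsg.Agent.H541.Hall.E6Three.Th (bI k) (AA s) *
      Cfsg.Agent.H541.Hall.E6Three.Th (bI k) 1 = Cfsg.Agent.H541.Hall.E6Three.Th (bI k) (AA s) := by
    rw [Cfsg.Agent.H541.Hall.E6Three.Th_mul hr, mul_one]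
  generalize Cfsg.Agent.H541.Hall.E6Three.Th (bI k) (1 : Matrix (Fin 2) (Fin 2) K) = E at *
  generalize Cfsg.Agent.H541.Hall.E6Three.Th (bI k) (AA s) = T at *
  have h3 : 1 - E + (s • T - E) - s • (1 - E + T) + 1 = (2 - s) • (1 - E) := by
    simp only [smul_add, smul_sub, sub_smul]
    rw [show ((2 : K) • (1 : Matrix I27 I27 K)) = 1 + 1 by rw [two_smul], show ((2 : K) • E) = E + E by rw [two_smul]]
    abel
  have h4 : 1 - E + T - 1 = T - E := by abel
  rw [h3, h4, mul_smul_comm, mul_sub, mul_one, sub_mul, h1, h2, sub_self, smul_zero]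

/-- the criterion with a square root of 2 -/
theorem core_of_sqrt [Finite K] {p : ℕ} [Fact p.Prime] [CharP K p] (hp : p ≠ 2) {G : Subgroup (GL I27 K)}
    (hG : G ≤ Zgrp K) {k0 : Subfield K} (hk : FrIn G k0) {s : K} (hs0 : s ∈ k0) (hs : s * s = 2) :
    CoreRow p ↥G := by
  refine Cfsg.Agent.H481.E6C.coreRow_c hp hG hk fun k => ?_
  obtain ⟨y, hyG, hy⟩ := Cfsg.Agent.H481.E6C.Ph_mem hk k (slIn_AA hs0)
  refine ⟨y, hyG, Cfsg.Agent.H481.E6C.nrm_Ph (slIn_AA hs0) hy, ?_, PQ s, PQ_ne s, PQ_deg s, ?_⟩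
  · have h4 : ∀ Y : Matrix I27 I27 K, Y ^ 4 = Y * Y * (Y * Y) := fun Y => by
      rw [← pow_two, ← pow_two, ← pow_mul]
    rw [hy, h4, Cfsg.Agent.H541.Hall.E6Three.Ph_mul, Cfsg.Agent.H541.Hall.E6Three.Ph_mul, AA_four hs]
  · rw [hy, Cfsg.Agent.H541.Hall.E6Three.aeval_mulVecLin, PQ_y, Matrix.mulVecLin_zero, LinearMap.range_zero,
      finrank_bot]
    exact Nat.zero_le _

end

/-- EH -/
theorem coreRow_e6_seven {F : Type} [Field F] [Fintype F] {p : ℕ} [Fact p.Prime] [CharP F p]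
    (h8 : Fintype.card F % 8 = 7) : CoreRow p (Zgrp F) := by
  have hpp : p.Prime := Fact.out
  have hp2 : p ≠ 2 := by
    rintro rfl
    have h1 := FiniteField.even_card_iff_char_two.1 (CharP.eq F ‹CharP F 2› (ringChar.charP F)).symm
    omega
  obtain ⟨s, hs⟩ := (FiniteField.isSquare_two_iff (F := F)).2 (by omega)
  refine core_of_sqrt hp2 le_rfl (k0 := ⊤) (fun k t _ => ⟨?_, ?_⟩) (s := s) (Subfield.mem_top s) hs.symm
  · have hr := Cfsg.Agent.H541.Hall.E6Three.bI_lt k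
    exact zU_mem (⟨bI k, hr⟩ : Fin 72) t
  · have hr := Cfsg.Agent.H541.Hall.E6Three.bI_lt k
    exact zU_mem (⟨71 - bI k, by omega⟩ : Fin 72) t

/-- an element of order 8 -/
theorem exists_a {F : Type} [Field F] [Fintype F] {q : ℕ} (hq : Fintype.card F = q ^ 2)
    (h8 : q % 8 = 1 ∨ q % 8 = 7) (hq1 : 1 < q) : ∃ a : F, a ^ 4 = -1 := by
  classical
  obtain ⟨g, hg⟩ := IsCyclic.exists_generator (α := Fˣ)
  have hg' := orderOf_eq_card_of_forall_mem_zpowers hg
  rw [Nat.card_eq_fintype_card, Fintype.card_units, hq] at hg'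
  have hd : 8 ∣ q ^ 2 - 1 := by
    have h1 : q ^ 2 % 8 = 1 := by
      rw [Nat.pow_mod]
      rcases h8 with h | h <;> rw [h]
    exact (Nat.modEq_iff_dvd' (Nat.one_le_pow _ _ (by omega))).1 (by rw [Nat.ModEq, h1])
  obtain ⟨n, hn⟩ := hd
  have hpos : 0 < q ^ 2 - 1 := by
    have : 2 ^ 2 ≤ q ^ 2 := Nat.pow_le_pow_left hq1 2
    omega
  have hn0 : n ≠ 0 := by
    rintro rfl
    omega
  have ho : orderOf (g ^ n) = 8 := by
    rw [orderOf_pow' g hn0, hg', hn, Nat.gcd_eq_right (Dvd.intro_left _ rfl), Nat.mul_div_cancel _ (by omega)]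
  refine ⟨((g ^ n : Fˣ) : F), ?_⟩
  have e1 : (((g ^ n : Fˣ) : F) ^ 4) * (((g ^ n : Fˣ) : F) ^ 4) = 1 := by
    rw [← pow_add, ← Units.val_pow_eq_pow_val, show (4 + 4 : ℕ) = 8 by norm_num, ← ho, pow_orderOf_eq_one,
      Units.val_one]
  rcases mul_self_eq_one_iff.1 e1 with h1 | h1
  · exfalso
    have h2 : (g ^ n) ^ 4 = 1 := Units.ext (by rw [Units.val_pow_eq_pow_val, h1, Units.val_one])
    have h3 := orderOf_dvd_of_pow_eq_one h2
    rw [ho] at h3
    norm_num at h3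
  · exact h1

/-- EI, with the membership lemma as a hypothesis -/
theorem coreRow_2e6_pm_of (hF : Cfsg.Agent.H813.Hall.E6Three.StF) {F : Type} [Field F] [Fintype F] {p q : ℕ}
    [Fact p.Prime] [CharP F p] (hq : Fintype.card F = q ^ 2) (h8 : q % 8 = 1 ∨ q % 8 = 7) : CoreRow p (Z2 F q) := by
  have hpp : p.Prime := Fact.out
  obtain ⟨n, -, hn⟩ := FiniteField.card F p
  have hqd : q ∣ p ^ (n : ℕ) := by rw [← hn, hq, pow_two]; exact dvd_mul_right q q
  obtain ⟨k, -, hk⟩ := (Nat.dvd_prime_pow hpp).1 hqd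
  have hq1 : 1 < q := by
    have h1 : 1 < Fintype.card F := Fintype.one_lt_card
    rcases Nat.lt_or_ge 1 q with h | h
    · exact h
    · have : q ^ 2 ≤ 1 ^ 2 := Nat.pow_le_pow_left h 2
      omega
  have hp2 : p ≠ 2 := by
    rintro rfl
    rcases Nat.eq_zero_or_pos k with h0 | h0
    · rw [hk, h0, pow_zero] at hq1
      omega
    · have : 2 ∣ q := by rw [hk]; exact dvd_pow_self 2 h0.ne'
      omega
  have hcard : Nat.card F = q ^ 2 := by rw [Nat.card_eq_fintype_card, hq]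
  obtain ⟨a, ha⟩ := exists_a hq h8 hq1
  have ha0 : a ≠ 0 := by
    rintro rfl
    norm_num at ha
  have ha8 : a ^ 8 = 1 := by
    have : a ^ 8 = a ^ 4 * a ^ 4 := by ring
    rw [this, ha]
    ring
  set k0 : Subfield F := (iterateFrobenius F p k).eqLocusField (RingHom.id F) with hk0
  have hk0' : ∀ t : F, t ∈ k0 ↔ t ^ q = t := by
    intro t
    have h1 : t ∈ k0 ↔ iterateFrobenius F p k t = t := Iff.rfl
    rw [h1, iterateFrobenius_def, ← hk]
  -- the square root of 2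
  have hs : (a + a⁻¹) * (a + a⁻¹) = 2 := by
    have h1 : a * a = -(a⁻¹ * a⁻¹) := by
      field_simp
      linear_combination ha
    have h2 : a * a⁻¹ = 1 := mul_inv_cancel₀ ha0
    linear_combination h1 + 2 * h2
  have hs0 : a + a⁻¹ ∈ k0 := by
    rw [hk0']
    have h1 : (a + a⁻¹) ^ q = a ^ q + a⁻¹ ^ q := by
      rw [hk, add_pow_char_pow]
    rw [h1]
    rcases h8 with h | h
    · have h2 : a ^ q = a := by
        conv_lhs => rw [← Nat.div_add_mod q 8, h, pow_add, pow_mul, ha8, one_pow, one_mul, pow_one]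
      rw [inv_pow, h2]
    · have h2 : a ^ q = a⁻¹ := by
        apply eq_inv_of_mul_eq_one_left
        rw [← pow_succ]
        have h3 : q + 1 = 8 * (q / 8 + 1) := by omega
        rw [h3, pow_mul, ha8, one_pow]
      rw [inv_pow, h2, inv_inv, add_comm]
  refine core_of_sqrt hp2 (Cfsg.Agent.H813.Hall.E6Three.Z2_le F q) (k0 := k0) ?_ hs0 hs
  intro l t ht
  have ht' : t ^ q = t := (hk0' t).1 ht
  fin_cases l
  · exact ⟨hF hcard ht' (by decide), hF hcard ht' (by decide)⟩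
  · exact ⟨hF hcard ht' (by decide), hF hcard ht' (by decide)⟩
  · exact ⟨hF hcard ht' (by decide), hF hcard ht' (by decide)⟩
  · exact ⟨hF hcard ht' (by decide), hF hcard ht' (by decide)⟩

end Cfsg.Agent.H405.Hall.E6Seven
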